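import Mathlib

/-!
# S2452, `E₈(q)`: a leading two by two block equal to `1` (helper493)

`two_block` : a matrix `a ≠ 1` of size `2 + k`, `k ≥ 3`, such that `a - μ` has rank at least two for all `μ ≠ 1`, is
conjugate to a matrix with leading block `1` and Schur complement different from `1`.
-/

set_option autoImplicit false

namespace Cfsg.Agent.H493.TW

open Module Submodule

section Lin

variable {K V : Type*} [Field K] [AddCommGroup V] [Module K V] [FiniteDimensional K V]

/-- a map all of whose vectors are eigenvectors modulo a subspace of codimension at least two -/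
theorem scalar_mod (N : V →ₗ[K] V) (P : Submodule K V) (hP : finrank K P + 2 ≤ finrank K V)
    (h : ∀ w : V, w ∉ P → ∃ ν : K, N w - ν • w ∈ P) : ∃ ν : K, ∀ w : V, N w - ν • w ∈ P := by
  obtain ⟨w0, hw0⟩ : ∃ w0 : V, w0 ∉ P := by
    by_contra hcon
    push Not at hcon
    have : P = ⊤ := eq_top_iff.2 fun x _ => hcon x
    rw [this, finrank_top] at hP
    omega
  obtain ⟨ν, hν⟩ := h w0 hw0
  refine ⟨ν, ?_⟩
  -- vectors outside `P + ⟨w0⟩`
  have key : ∀ w : V, w ∉ P ⊔ span K {w0} → N w - ν • w ∈ P := by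
    intro w hw
    have hwP : w ∉ P := fun hh => hw (mem_sup_left hh)
    obtain ⟨μ, hμ⟩ := h w hwP
    have hs : w + w0 ∉ P := by
      intro hh
      apply hw
      have : w = (w + w0) + (-1 : K) • w0 := by module
      rw [this]
      exact add_mem (mem_sup_left hh) (mem_sup_right (smul_mem _ _ (mem_span_singleton_self w0)))
    obtain ⟨ρ, hρ⟩ := h _ hs
    -- `(μ - ρ) w + (ν - ρ) w0 ∈ P`
    have h1 : (μ - ρ) • w + (ν - ρ) • w0 ∈ P := by
      have : (μ - ρ) • w + (ν - ρ) • w0 = (N (w + w0) - ρ • (w + w0)) - (N w - μ • w) - (N w0 - ν • w0) := by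
        rw [map_add]; module
      rw [this]
      exact sub_mem (sub_mem hρ hμ) hν
    have h2 : μ = ρ := by
      by_contra hne
      apply hw
      have h3 : μ - ρ ≠ 0 := sub_ne_zero.2 hne
      have : w = (μ - ρ)⁻¹ • ((μ - ρ) • w + (ν - ρ) • w0) + (-((μ - ρ)⁻¹ * (ν - ρ))) • w0 := by
        rw [smul_add, smul_smul, inv_mul_cancel₀ h3, smul_smul]; module
      rw [this]
      exact add_mem (mem_sup_left (smul_mem _ _ h1)) (mem_sup_right (smul_mem _ _ (mem_span_singleton_self w0)))
    have h3 : ν = ρ := by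
      by_contra hne
      apply hw0
      have h3 : ν - ρ ≠ 0 := sub_ne_zero.2 hne
      rw [h2, sub_self, zero_smul, zero_add] at h1
      have : w0 = (ν - ρ)⁻¹ • ((ν - ρ) • w0) := by rw [smul_smul, inv_mul_cancel₀ h3, one_smul]
      rw [this]
      exact smul_mem _ _ h1
    rw [h3, ← h2]
    exact hμ
  obtain ⟨u, hu⟩ : ∃ u : V, u ∉ P ⊔ span K {w0} := by
    by_contra hcon
    push Not at hcon
    have h1 : P ⊔ span K {w0} = ⊤ := eq_top_iff.2 fun x _ => hcon x
    have h2 := finrank_add_le_finrank_add_finrank P (span K {w0})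
    rw [h1, finrank_top] at h2
    have h3 : finrank K (span K {w0}) = 1 := finrank_span_singleton (fun hh => hw0 (by rw [hh]; exact P.zero_mem))
    omega
  intro w
  by_cases hw : w ∈ P ⊔ span K {w0}
  · have h1 : w + u ∉ P ⊔ span K {w0} := fun hh => hu (by
      have : u = (w + u) - w := by abel
      rw [this]
      exact sub_mem hh hw)
    have h2 := key _ h1
    have h3 := key u hu
    have : N w - ν • w = (N (w + u) - ν • (w + u)) - (N u - ν • u) := by rw [map_add]; module
    rw [this]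
    exact sub_mem h2 h3
  · exact key w hw

/-- two independent vectors spanning a space disjoint from its image -/
def Good (N : V →ₗ[K] V) (w₁ w₂ : V) : Prop :=
  LinearIndependent K ![w₁, w₂] ∧ ∀ a b c d : K, a • w₁ + b • w₂ = c • N w₁ + d • N w₂ → a = 0 ∧ b = 0

omit [FiniteDimensional K V] in
theorem indep {w₁ w₂ : V} (h1 : w₁ ≠ 0) (h2 : w₂ ∉ span K {w₁}) : LinearIndependent K ![w₁, w₂] := by
  rw [LinearIndependent.pair_iff]
  intro a b hab
  have hb : b = 0 := by
    by_contra hb
    apply h2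
    rw [mem_span_singleton]
    refine ⟨-(b⁻¹ * a), ?_⟩
    have : w₂ = b⁻¹ • (b • w₂) := by rw [smul_smul, inv_mul_cancel₀ hb, one_smul]
    rw [this, show b • w₂ = (a • w₁ + b • w₂) - a • w₁ by abel, hab, zero_sub, smul_neg, smul_smul, neg_smul]
  rw [hb, zero_smul, add_zero] at hab
  exact ⟨(smul_eq_zero.1 hab).resolve_right h1, hb⟩

variable {N : V →ₗ[K] V}

omit [FiniteDimensional K V] in
theorem good_of_ker (h : 2 ≤ finrank K (LinearMap.ker N)) : ∃ w₁ w₂ : V, Good N w₁ w₂ := by
  obtain ⟨w₁, h1, h10⟩ : ∃ w ∈ LinearMap.ker N, w ≠ 0 := by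
    refine (Submodule.ne_bot_iff _).1 fun hh => ?_
    rw [hh, finrank_bot] at h
    omega
  obtain ⟨w₂, h2, h20⟩ : ∃ w ∈ LinearMap.ker N, w ∉ span K {w₁} := by
    by_contra hcon
    push Not at hcon
    have h3 : LinearMap.ker N ≤ span K {w₁} := hcon
    have h4 := Submodule.finrank_mono h3
    rw [finrank_span_singleton h10] at h4
    omega
  refine ⟨w₁, w₂, indep h10 h20, ?_⟩
  intro a b c d h
  rw [LinearMap.mem_ker] at h1 h2
  rw [h1, h2, smul_zero, smul_zero, add_zero] at h
  exact (LinearIndependent.pair_iff.1 (indep h10 h20)) a b h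

theorem good_of_line (hn : 5 ≤ finrank K V) (hν : ∀ ν : K, ν ≠ 0 → ∀ P : Submodule K V, finrank K P ≤ 1 →
    ¬ ∀ w, N w - ν • w ∈ P) (h : finrank K (LinearMap.ker N) = 1) : ∃ w₁ w₂ : V, Good N w₁ w₂ := by
  obtain ⟨k, hk, hk0⟩ : ∃ w ∈ LinearMap.ker N, w ≠ 0 := by
    refine (Submodule.ne_bot_iff _).1 fun hh => ?_
    rw [hh, finrank_bot] at h
    omega
  have hP : LinearMap.ker N = span K {k} := by
    refine (eq_of_le_of_finrank_eq ((span_singleton_le_iff_mem _ _).2 hk) ?_).symm
    rw [finrank_span_singleton hk0, h]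
  by_cases hw : ∀ w : V, w ∉ LinearMap.ker N → ∃ ν : K, N w - ν • w ∈ LinearMap.ker N
  · exfalso
    obtain ⟨ν, h1⟩ := scalar_mod N (LinearMap.ker N) (by omega) hw
    by_cases h0 : ν = 0
    · have h2 : LinearMap.range N ≤ LinearMap.ker N := by
        rintro _ ⟨w, rfl⟩
        have := h1 w
        rwa [h0, zero_smul, sub_zero] at this
      have h3 := Submodule.finrank_mono h2
      have h4 := N.finrank_range_add_finrank_ker
      omega
    · exact hν ν h0 _ h.le h1
  · push Not at hw
    obtain ⟨w, hw1, hw2⟩ := hw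
    refine ⟨k, w, indep hk0 (by rwa [← hP]), ?_⟩
    intro a b c d he
    rw [LinearMap.mem_ker] at hk
    rw [hk, smul_zero, zero_add] at he
    by_cases hd : d = 0
    · rw [hd, zero_smul] at he
      exact (LinearIndependent.pair_iff.1 (indep hk0 (by rwa [← hP]))) a b he
    · exfalso
      apply hw2 (d⁻¹ * b)
      have h5 : N w - (d⁻¹ * b) • w = (d⁻¹ * a) • k := by
        have : N w = d⁻¹ • (d • N w) := by rw [smul_smul, inv_mul_cancel₀ hd, one_smul]
        rw [this, ← he, smul_add, smul_smul, smul_smul]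
        abel
      rw [h5, hP]
      exact smul_mem _ _ (mem_span_singleton_self k)

omit [FiniteDimensional K V] in
theorem finrank_pair_le (x y : V) : finrank K (span K {x, y}) ≤ 2 := by
  classical
  have h := finrank_span_finset_le_card (R := K) ({x, y} : Finset V)
  rw [Set.finrank, Finset.coe_insert, Finset.coe_singleton] at h
  exact h.trans Finset.card_le_two

theorem step (hn : 5 ≤ finrank K V) {w : V} (hw : ∀ ν : K, N w ≠ ν • w) :
    (∃ w₁ w₂ : V, Good N w₁ w₂) ∨ ∃ ν : K, ∀ v, N v - ν • v ∈ span K {w, N w} := by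
  have hw0 : w ≠ 0 := by
    rintro rfl
    exact hw 0 (by rw [map_zero, smul_zero])
  have h2 := finrank_pair_le (K := K) w (N w)
  by_cases h : ∀ u : V, u ∉ span K {w, N w} → ∃ ν : K, N u - ν • u ∈ span K {w, N w}
  · exact Or.inr (scalar_mod N _ (by omega) h)
  · left
    push Not at h
    obtain ⟨u, hu, hu1⟩ := h
    have hww : w ∈ span K {w, N w} := subset_span (by simp)
    have hNw : N w ∈ span K {w, N w} := subset_span (by simp)
    refine ⟨w, u, indep hw0 (fun hh => hu (span_mono (by simp) hh)), ?_⟩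
    intro a b c d he
    by_cases hd : d = 0
    · rw [hd, zero_smul, add_zero] at he
      have hb : b = 0 := by
        by_contra hb
        apply hu
        have : u = b⁻¹ • (b • u) := by rw [smul_smul, inv_mul_cancel₀ hb, one_smul]
        rw [this, show b • u = (a • w + b • u) - a • w by abel, he]
        exact smul_mem _ _ (sub_mem (smul_mem _ _ hNw) (smul_mem _ _ hww))
      rw [hb, zero_smul, add_zero] at he
      refine ⟨?_, hb⟩
      by_cases hc : c = 0
      · rw [hc, zero_smul] at he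
        exact (smul_eq_zero.1 he).resolve_right hw0
      · exfalso
        apply hw (c⁻¹ * a)
        rw [mul_smul, he, smul_smul, inv_mul_cancel₀ hc, one_smul]
    · exfalso
      apply hu1 (d⁻¹ * b)
      have h5 : N u - (d⁻¹ * b) • u = d⁻¹ • (a • w - c • N w) := by
        have h6 : d • N u = a • w + b • u - c • N w := by rw [he]; abel
        have : N u = d⁻¹ • (d • N u) := by rw [smul_smul, inv_mul_cancel₀ hd, one_smul]
        rw [this, h6, mul_smul]
        module
      rw [h5]
      exact smul_mem _ _ (sub_mem (smul_mem _ _ hww) (smul_mem _ _ hNw))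

theorem good_of_inj (hn : 5 ≤ finrank K V) (hν : ∀ ν : K, ∀ P : Submodule K V, finrank K P ≤ 1 →
    ¬ ∀ w, N w - ν • w ∈ P) (_ : LinearMap.ker N = ⊥) : ∃ w₁ w₂ : V, Good N w₁ w₂ := by
  by_contra hcon
  have hst : ∀ w : V, (∀ ν : K, N w ≠ ν • w) → ∃ ν : K, ∀ v, N v - ν • v ∈ span K {w, N w} :=
    fun w hw => (step hn hw).resolve_left hcon
  -- a vector which is not an eigenvector
  obtain ⟨w₁, hw₁⟩ : ∃ w : V, ∀ ν : K, N w ≠ ν • w := by
    by_contra hc
    push Not at hc
    obtain ⟨ν, h1⟩ := scalar_mod N ⊥ (by rw [finrank_bot]; omega) (fun w _ => by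
      obtain ⟨ν, h⟩ := hc w
      exact ⟨ν, by rw [h, sub_self]; exact zero_mem _⟩)
    exact hν ν ⊥ (by rw [finrank_bot]; omega) h1
  obtain ⟨ν₁, h1⟩ := hst w₁ hw₁
  -- the image of `N - ν₁`
  have hR1 : LinearMap.range (N - ν₁ • LinearMap.id) ≤ span K {w₁, N w₁} := by
    rintro _ ⟨v, rfl⟩
    exact h1 v
  have hr1 : 2 ≤ finrank K (LinearMap.range (N - ν₁ • LinearMap.id)) := by
    by_contra hlt
    exact hν ν₁ (LinearMap.range (N - ν₁ • LinearMap.id)) (by omega) fun w => ⟨w, rfl⟩
  have hp1 := finrank_pair_le (K := K) w₁ (N w₁)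
  have hE1 : LinearMap.range (N - ν₁ • LinearMap.id) = span K {w₁, N w₁} :=
    eq_of_le_of_finrank_le hR1 (by omega)
  have hk1 := (N - ν₁ • LinearMap.id).finrank_range_add_finrank_ker
  have hf1 : finrank K (span K {w₁, N w₁}) = 2 := by rw [← hE1] at hp1 ⊢; omega
  -- a vector outside the two subspaces
  obtain ⟨w, hwE, hwP⟩ : ∃ w : V, w ∉ LinearMap.ker (N - ν₁ • LinearMap.id) ∧ w ∉ span K {w₁, N w₁} := by
    obtain ⟨x, hx⟩ : ∃ x : V, x ∉ LinearMap.ker (N - ν₁ • LinearMap.id) := by
      by_contra hc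
      push Not at hc
      have : LinearMap.ker (N - ν₁ • LinearMap.id) = ⊤ := eq_top_iff.2 fun x _ => hc x
      rw [this, finrank_top] at hk1
      omega
    obtain ⟨y, hy⟩ : ∃ y : V, y ∉ span K {w₁, N w₁} := by
      by_contra hc
      push Not at hc
      have : span K {w₁, N w₁} = ⊤ := eq_top_iff.2 fun x _ => hc x
      rw [this, finrank_top] at hf1
      omega
    by_cases hx1 : x ∈ span K {w₁, N w₁}
    · by_cases hy1 : y ∈ LinearMap.ker (N - ν₁ • LinearMap.id)
      · refine ⟨x + y, fun h => hx ?_, fun h => hy ?_⟩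
        · have := sub_mem h hy1
          rwa [add_sub_cancel_right] at this
        · have := sub_mem h hx1
          rwa [add_sub_cancel_left] at this
      · exact ⟨y, hy1, hy⟩
    · exact ⟨x, hx, hx1⟩
  have hwne : ∀ ν : K, N w ≠ ν • w := by
    intro ν h
    have h5 : (N - ν₁ • LinearMap.id : V →ₗ[K] V) w = (ν - ν₁) • w := by
      rw [LinearMap.sub_apply, h, LinearMap.smul_apply, LinearMap.id_apply]
      module
    by_cases h6 : ν = ν₁
    · apply hwE
      rw [LinearMap.mem_ker, h5, h6, sub_self, zero_smul]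
    · apply hwP
      rw [← hE1]
      have h7 : w = (N - ν₁ • LinearMap.id : V →ₗ[K] V) ((ν - ν₁)⁻¹ • w) := by
        rw [map_smul, h5, smul_smul, inv_mul_cancel₀ (sub_ne_zero.2 h6), one_smul]
      rw [h7]
      exact ⟨_, rfl⟩
  obtain ⟨ν₂, h2⟩ := hst w hwne
  have hR2 : LinearMap.range (N - ν₂ • LinearMap.id) ≤ span K {w, N w} := by
    rintro _ ⟨v, rfl⟩
    exact h2 v
  have hp2 := finrank_pair_le (K := K) w (N w)
  by_cases h12 : ν₂ = ν₁
  · rw [h12, hE1] at hR2
    have h8 : span K {w₁, N w₁} = span K {w, N w} := eq_of_le_of_finrank_le hR2 (by omega)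
    apply hwP
    rw [h8]
    exact subset_span (by simp)
  · have hk2 := (N - ν₂ • LinearMap.id).finrank_range_add_finrank_ker
    have hr2 := Submodule.finrank_mono hR2
    have hd : Disjoint (LinearMap.ker (N - ν₁ • LinearMap.id)) (LinearMap.ker (N - ν₂ • LinearMap.id)) := by
      rw [Submodule.disjoint_def]
      intro x hx hy
      rw [LinearMap.mem_ker, LinearMap.sub_apply, LinearMap.smul_apply, LinearMap.id_apply] at hx hy
      have h9 : (ν₂ - ν₁) • x = 0 := by
        have : (ν₂ - ν₁) • x = (N x - ν₁ • x) - (N x - ν₂ • x) := by module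
        rw [this, hx, hy, sub_zero]
      exact (smul_eq_zero.1 h9).resolve_left (sub_ne_zero.2 h12)
    have h10 := Submodule.finrank_add_finrank_le_of_disjoint hd
    have h11 : finrank K (LinearMap.range (N - ν₁ • LinearMap.id)) = 2 := by rw [hE1, hf1]
    omega

/-- **existence of the plane** -/
theorem exists_good (hn : 5 ≤ finrank K V) (hν : ∀ ν : K, ν ≠ 0 → ∀ P : Submodule K V, finrank K P ≤ 1 →
    ¬ ∀ w, N w - ν • w ∈ P) : ∃ w₁ w₂ : V, Good N w₁ w₂ := by
  rcases (show finrank K (LinearMap.ker N) = 0 ∨ finrank K (LinearMap.ker N) = 1 ∨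
      2 ≤ finrank K (LinearMap.ker N) by omega) with h | h | h
  · have h1 : LinearMap.ker N = ⊥ := Submodule.finrank_eq_zero.1 h
    refine good_of_inj hn (fun ν P hP hh => ?_) h1
    by_cases h0 : ν = 0
    · have h2 : LinearMap.range N ≤ P := by
        rintro _ ⟨w, rfl⟩
        have := hh w
        rwa [h0, zero_smul, sub_zero] at this
      have h3 := Submodule.finrank_mono h2
      have h4 := N.finrank_range_add_finrank_ker
      omega
    · exact hν ν h0 P hP hh
  · exact good_of_line hn hν h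
  · exact good_of_ker h

/-- the plane in the kernel, not containing the image -/
theorem exists_good_ker (h3 : 3 ≤ finrank K (LinearMap.ker N)) (h0 : N ≠ 0) :
    ∃ w₁ w₂ v : V, LinearIndependent K ![w₁, w₂] ∧ N w₁ = 0 ∧ N w₂ = 0 ∧ N v ∉ span K {w₁, w₂} := by
  obtain ⟨v, hv⟩ : ∃ v, N v ≠ 0 := by
    by_contra hc
    push Not at hc
    exact h0 (LinearMap.ext hc)
  obtain ⟨w₁, h1, h10⟩ : ∃ w ∈ LinearMap.ker N, w ∉ span K {N v} := by
    by_contra hc
    push Not at hc
    have h4 := Submodule.finrank_mono (show LinearMap.ker N ≤ span K {N v} from hc)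
    rw [finrank_span_singleton hv] at h4
    omega
  obtain ⟨w₂, h2, h20⟩ : ∃ w ∈ LinearMap.ker N, w ∉ span K {N v, w₁} := by
    by_contra hc
    push Not at hc
    have h4 := Submodule.finrank_mono (show LinearMap.ker N ≤ span K {N v, w₁} from hc)
    have h5 := finrank_pair_le (K := K) (N v) w₁
    omega
  have h11 : w₁ ≠ 0 := by
    rintro rfl
    exact h10 (zero_mem _)
  refine ⟨w₁, w₂, v, indep h11 (fun hh => h20 (span_mono (by simp) hh)), h1, h2, ?_⟩
  intro hh
  rw [mem_span_pair] at hh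
  obtain ⟨a, b, hab⟩ := hh
  by_cases hb : b = 0
  · rw [hb, zero_smul, add_zero] at hab
    have ha : a ≠ 0 := by
      rintro rfl
      rw [zero_smul] at hab
      exact hv hab.symm
    apply h10
    rw [mem_span_singleton]
    exact ⟨a⁻¹, by rw [← hab, smul_smul, inv_mul_cancel₀ ha, one_smul]⟩
  · apply h20
    rw [mem_span_pair]
    refine ⟨b⁻¹, -(b⁻¹ * a), ?_⟩
    rw [← hab, smul_add, smul_smul, smul_smul, inv_mul_cancel₀ hb, one_smul]
    module

/-- an adapted basis -/
theorem exists_basis {k : ℕ} (hV : finrank K V = 2 + k) {w₁ w₂ : V} (h : Good N w₁ w₂) :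
    ∃ b : Basis (Fin 2 ⊕ Fin k) K V, b (Sum.inl 0) = w₁ ∧ b (Sum.inl 1) = w₂ ∧
      ∀ i j : Fin 2, b.repr (N (b (Sum.inl i))) (Sum.inl j) = 0 := by
  obtain ⟨hli, hg⟩ := h
  let W : Submodule K V := span K (Set.range ![w₁, w₂])
  let bW : Basis (Fin 2) K W := Basis.span hli
  have hw₁ : w₁ ∈ W := subset_span ⟨0, rfl⟩
  have hw₂ : w₂ ∈ W := subset_span ⟨1, rfl⟩
  have hdis : Disjoint W (W.map N) := by
    rw [Submodule.disjoint_def]
    intro x hx hx'
    have hr : W = span K {w₁, w₂} := by
      change span K (Set.range ![w₁, w₂]) = _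
      congr 1
      ext x
      simp [eq_comm, or_comm]
    obtain ⟨y, hy, rfl⟩ := hx'
    rw [SetLike.mem_coe, hr, mem_span_pair] at hy
    rw [hr, mem_span_pair] at hx
    obtain ⟨c, d, rfl⟩ := hy
    obtain ⟨a, b, hab⟩ := hx
    rw [map_add, map_smul, map_smul] at hab
    obtain ⟨rfl, rfl⟩ := hg a b c d hab
    rw [map_add, map_smul, map_smul, ← hab]
    simp
  obtain ⟨U, hU, hc'⟩ := hdis.symm.exists_isCompl
  have hc : IsCompl W U := hc'.symm
  have hfW : finrank K W = 2 := by rw [Module.finrank_eq_card_basis bW, Fintype.card_fin]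
  have hfU : finrank K U = k := by
    have := Submodule.finrank_add_eq_of_isCompl hc
    omega
  let bU : Basis (Fin k) K U := finBasisOfFinrankEq K U hfU
  let b : Basis (Fin 2 ⊕ Fin k) K V := (bW.prod bU).map (prodEquivOfIsCompl W U hc)
  have hbl : ∀ i : Fin 2, b (Sum.inl i) = ![w₁, w₂] i := by
    intro i
    change (prodEquivOfIsCompl W U hc) ((bW.prod bU) (Sum.inl i)) = _
    have h1 : (bW.prod bU) (Sum.inl i) = (bW i, 0) := by
      ext <;> simp
    rw [h1, coe_prodEquivOfIsCompl']
    simp only [coe_zero, add_zero]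
    exact congrArg Subtype.val (Basis.span_apply hli i)
  have hrU : ∀ u ∈ U, ∀ j : Fin 2, b.repr u (Sum.inl j) = 0 := by
    intro u hu j
    change (bW.prod bU).repr ((prodEquivOfIsCompl W U hc).symm u) (Sum.inl j) = 0
    have h1 : (prodEquivOfIsCompl W U hc).symm u = (0, ⟨u, hu⟩) :=
      prodEquivOfIsCompl_symm_apply_right W U hc ⟨u, hu⟩
    rw [h1]
    simp
  refine ⟨b, hbl 0, hbl 1, fun i j => hrU _ (hU ?_) j⟩
  rw [hbl]
  refine mem_map_of_mem ?_
  fin_cases i
  · exact hw₁
  · exact hw₂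

end Lin

section Mat

open Matrix

variable {K : Type*} [Field K] {k : ℕ}

theorem exists_scaled (hk : 0 < k) (b : Basis (Fin 2 ⊕ Fin k) K (Fin (2 + k) → K)) :
    ∃ b' : Basis (Fin 2 ⊕ Fin k) K (Fin (2 + k) → K), (∀ i : Fin 2, b' (Sum.inl i) = b (Sum.inl i)) ∧
      (∀ (v : Fin (2 + k) → K) (i : Fin 2), b'.repr v (Sum.inl i) = b.repr v (Sum.inl i)) ∧
      ((Pi.basisFun K (Fin (2 + k))).toMatrix (b'.reindex finSumFinEquiv)).det = 1 := by
  classical
  have hu : IsUnit ((Pi.basisFun K (Fin (2 + k))).toMatrix (b.reindex finSumFinEquiv)).det := by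
    have h := Basis.toMatrix_mul_toMatrix_flip (Pi.basisFun K (Fin (2 + k))) (b.reindex finSumFinEquiv)
    exact IsUnit.of_mul_eq_one _ (by rw [← det_mul, h, det_one])
  let w : Fin 2 ⊕ Fin k → Kˣ := fun i => if i = Sum.inr ⟨0, hk⟩ then hu.unit⁻¹ else 1
  have hw : ∀ i : Fin 2, w (Sum.inl i) = 1 := fun i => if_neg (by simp)
  refine ⟨b.unitsSMul w, fun i => ?_, fun v i => ?_, ?_⟩
  · rw [Basis.unitsSMul_apply, hw, one_smul]
  · rw [Basis.repr_unitsSMul, hw, inv_one, one_smul]
  · have h1 : (Pi.basisFun K (Fin (2 + k))).toMatrix ((b.unitsSMul w).reindex finSumFinEquiv) =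
        (Pi.basisFun K (Fin (2 + k))).toMatrix (b.reindex finSumFinEquiv) *
          diagonal fun j => ((w (finSumFinEquiv.symm j) : Kˣ) : K) := by
      ext i j
      rw [mul_diagonal, Basis.toMatrix_apply, Basis.toMatrix_apply, Basis.reindex_apply, Basis.reindex_apply,
        Basis.unitsSMul_apply, Pi.basisFun_repr, Pi.basisFun_repr, Units.smul_def, Pi.smul_apply, smul_eq_mul,
        mul_comm]
    rw [h1, det_mul, det_diagonal, Equiv.prod_comp finSumFinEquiv.symm (fun i => ((w i : Kˣ) : K))]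
    have h2 : ∏ i : Fin 2 ⊕ Fin k, ((w i : Kˣ) : K) = ((hu.unit⁻¹ : Kˣ) : K) := by
      rw [Finset.prod_eq_single (Sum.inr ⟨0, hk⟩)]
      · change (((if _ then _ else _ : Kˣ)) : K) = _
        rw [if_pos rfl]
      · intro i _ hi
        change (((if _ then _ else _ : Kˣ)) : K) = _
        rw [if_neg hi, Units.val_one]
      · intro h
        exact absurd (Finset.mem_univ _) h
    rw [h2]
    exact hu.unit.mul_inv

/-- **A leading two by two block equal to `1`.** -/
theorem two_block (hk : 5 ≤ k) (a : Matrix (Fin (2 + k)) (Fin (2 + k)) K) (hdet : a.det = 1) (h1 : a ≠ 1)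
    (hμ : ∀ μ : K, μ ≠ 1 → 2 ≤ (a - Matrix.scalar (Fin (2 + k)) μ).rank) :
    ∃ P Q : Matrix (Fin (2 + k)) (Fin (2 + k)) K, P * Q = 1 ∧ P.det = 1 ∧
      ∃ (X : Matrix (Fin k) (Fin 2) K) (Y : Matrix (Fin 2) (Fin k) K) (C : Matrix (Fin k) (Fin k) K),
        (P * a * Q).submatrix finSumFinEquiv finSumFinEquiv =
          fromBlocks 1 0 X 1 * fromBlocks 1 0 0 C * fromBlocks 1 Y 0 1 ∧ C.det = 1 ∧ C ≠ 1 := by
  classical
  let N : (Fin (2 + k) → K) →ₗ[K] (Fin (2 + k) → K) := toLin' (a - 1)
  have hNa : ∀ v, toLin' a v = v + N v := by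
    intro v
    change toLin' a v = v + toLin' (a - 1) v
    rw [map_sub, toLin'_one, LinearMap.sub_apply, LinearMap.id_apply]
    abel
  have hV : finrank K (Fin (2 + k) → K) = 2 + k := Module.finrank_fin_fun K
  have hN0 : N ≠ 0 := by
    intro h
    apply h1
    have h2 : toLin' (a - 1) = 0 := h
    rw [LinearEquiv.map_eq_zero_iff, sub_eq_zero] at h2
    exact h2
  have hν : ∀ ν : K, ν ≠ 0 → ∀ P : Submodule K (Fin (2 + k) → K), finrank K P ≤ 1 → ¬ ∀ w, N w - ν • w ∈ P := by
    intro ν h0 P hP h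
    have h2 := hμ (1 + ν) (by intro h; exact h0 (by linear_combination h))
    have h3 : LinearMap.range (a - Matrix.scalar (Fin (2 + k)) (1 + ν)).mulVecLin ≤ P := by
      rintro _ ⟨w, rfl⟩
      have h4 : (a - Matrix.scalar (Fin (2 + k)) (1 + ν)).mulVecLin w = N w - ν • w := by
        have h5 := hNa w
        rw [toLin'_apply] at h5
        rw [mulVecLin_apply, sub_mulVec, h5, Matrix.scalar_apply, ← smul_one_eq_diagonal, smul_mulVec, one_mulVec]
        module
      rw [h4]
      exact h w
    have h6 := Submodule.finrank_mono h3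
    rw [Matrix.rank] at h2
    omega
  -- the plane
  obtain ⟨w₁, w₂, hg, hC⟩ : ∃ w₁ w₂, Good N w₁ w₂ ∧ (5 ≤ finrank K (LinearMap.range N) ∨
      (N w₁ = 0 ∧ N w₂ = 0 ∧ ∃ v, N v ∉ span K {w₁, w₂})) := by
    by_cases h : 5 ≤ finrank K (LinearMap.range N)
    · obtain ⟨w₁, w₂, hg⟩ := exists_good (N := N) (by omega) hν
      exact ⟨w₁, w₂, hg, Or.inl h⟩
    · have h2 := N.finrank_range_add_finrank_ker
      obtain ⟨w₁, w₂, v, h3, h4, h5, h6⟩ := exists_good_ker (N := N) (by omega) hN0
      refine ⟨w₁, w₂, ⟨h3, fun a b c d he => ?_⟩, Or.inr ⟨h4, h5, v, h6⟩⟩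
      rw [h4, h5, smul_zero, smul_zero, add_zero] at he
      exact (LinearIndependent.pair_iff.1 h3) a b he
  obtain ⟨b₀, hb1, hb2, hb3⟩ := exists_basis hV hg
  obtain ⟨b, hb4, hb5, hb6⟩ := exists_scaled (by omega) b₀
  have hb1' : b (Sum.inl 0) = w₁ := by rw [hb4, hb1]
  have hb2' : b (Sum.inl 1) = w₂ := by rw [hb4, hb2]
  have hb3' : ∀ i j : Fin 2, b.repr (N (b (Sum.inl i))) (Sum.inl j) = 0 := by
    intro i j
    rw [hb5, hb4]
    exact hb3 i j
  let s := Pi.basisFun K (Fin (2 + k))
  let c := b.reindex finSumFinEquiv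
  obtain ⟨M, hMd⟩ : ∃ M : Matrix (Fin 2 ⊕ Fin k) (Fin 2 ⊕ Fin k) K, M = LinearMap.toMatrix b b (toLin' a) :=
    ⟨_, rfl⟩
  have hPQ : c.toMatrix s * s.toMatrix c = 1 := Basis.toMatrix_mul_toMatrix_flip c s
  have hPaQ : c.toMatrix s * a * s.toMatrix c = LinearMap.toMatrix c c (toLin' a) := by
    have h := basis_toMatrix_mul_linearMap_toMatrix_mul_basis_toMatrix (b := c) (b' := s) (c := c) (c' := s) (toLin' a)
    rw [← h]
    congr 2
    exact (LinearMap.toMatrix'_toLin' a).symm
  have hM : (c.toMatrix s * a * s.toMatrix c).submatrix finSumFinEquiv finSumFinEquiv = M := by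
    rw [hPaQ, hMd]
    ext i j
    rw [submatrix_apply, LinearMap.toMatrix_apply, LinearMap.toMatrix_apply, Basis.reindex_apply,
      Basis.repr_reindex_apply, Equiv.symm_apply_apply, Equiv.symm_apply_apply]
  have hPdet : (c.toMatrix s).det = 1 := by
    have h := congrArg det hPQ
    rw [det_mul, det_one] at h
    have h2 : (s.toMatrix c).det = 1 := hb6
    rwa [h2, mul_one] at h
  have hMe : ∀ i j, M i j = b.repr (b j) i + b.repr (N (b j)) i := by
    intro i j
    rw [hMd, LinearMap.toMatrix_apply, hNa, map_add, Finsupp.add_apply]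
  have h11 : M.toBlocks₁₁ = 1 := by
    ext i j
    rw [toBlocks₁₁, of_apply, hMe, hb3', add_zero, Basis.repr_self, Finsupp.single_apply, one_apply]
    by_cases h : i = j
    · subst h; simp
    · rw [if_neg h, if_neg (fun hh => h (Sum.inl_injective hh).symm)]
  have hMb : M = fromBlocks 1 0 M.toBlocks₂₁ 1 * fromBlocks 1 0 0 (M.toBlocks₂₂ - M.toBlocks₂₁ * M.toBlocks₁₂) *
      fromBlocks 1 M.toBlocks₁₂ 0 1 := by
    rw [fromBlocks_multiply, fromBlocks_multiply]
    simp only [Matrix.mul_one, Matrix.one_mul, Matrix.mul_zero, Matrix.zero_mul, add_zero, zero_add]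
    rw [← h11]
    rw [add_sub_cancel]
    exact (fromBlocks_toBlocks M).symm
  refine ⟨c.toMatrix s, s.toMatrix c, hPQ, hPdet, M.toBlocks₂₁, M.toBlocks₁₂,
    M.toBlocks₂₂ - M.toBlocks₂₁ * M.toBlocks₁₂, hM.trans hMb, ?_, ?_⟩
  · have hdM : M.det = 1 := by
      rw [← hM, det_submatrix_equiv_self, det_mul, det_mul, hPdet, hdet, one_mul, one_mul]
      exact hb6
    rw [hMb, det_mul, det_mul, det_fromBlocks_zero₁₂, det_fromBlocks_zero₁₂, det_fromBlocks_zero₂₁] at hdM
    simpa using hdM
  · intro hC1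
    have hst : ∀ j : Fin k, N (b (Sum.inr j)) =
        ∑ i : Fin 2, M (Sum.inl i) (Sum.inr j) • (b (Sum.inl i) + N (b (Sum.inl i))) := by
      intro j
      refine b.ext_elem fun r => ?_
      rw [map_sum, Finsupp.finsetSum_apply]
      rcases r with r | l
      · have h2 := hMe (Sum.inl r) (Sum.inr j)
        rw [Basis.repr_self, Finsupp.single_apply, if_neg (by simp), zero_add] at h2
        rw [← h2, Finset.sum_eq_single r]
        · rw [map_smul, Finsupp.smul_apply, map_add, Finsupp.add_apply, hb3', Basis.repr_self, Finsupp.single_eq_same,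
            add_zero, smul_eq_mul, mul_one]
        · intro i _ hi
          rw [map_smul, Finsupp.smul_apply, map_add, Finsupp.add_apply, hb3', Basis.repr_self, Finsupp.single_apply,
            if_neg (fun hh => hi (Sum.inl_injective hh)), add_zero, smul_zero]
        · intro h
          exact absurd (Finset.mem_univ _) h
      · have h2 := hMe (Sum.inr l) (Sum.inr j)
        have h3 := congrFun (congrFun hC1 l) j
        rw [Matrix.sub_apply, toBlocks₂₂, of_apply, h2, mul_apply, one_apply, Basis.repr_self, Finsupp.single_apply] at h3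
        have h4 : (if (Sum.inr j : Fin 2 ⊕ Fin k) = Sum.inr l then (1 : K) else 0) = if l = j then 1 else 0 := by
          by_cases h : l = j
          · subst h; simp
          · rw [if_neg h, if_neg (fun hh => h (Sum.inr_injective hh).symm)]
        rw [h4] at h3
        have h5 : b.repr (N (b (Sum.inr j))) (Sum.inr l) = ∑ i : Fin 2, M.toBlocks₂₁ l i * M.toBlocks₁₂ i j := by
          linear_combination h3
        rw [h5]
        refine Finset.sum_congr rfl fun i _ => ?_
        rw [map_smul, Finsupp.smul_apply, map_add, Finsupp.add_apply, Basis.repr_self, Finsupp.single_apply,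
          if_neg (by simp), zero_add, smul_eq_mul, mul_comm]
        have h6 := hMe (Sum.inr l) (Sum.inl i)
        rw [Basis.repr_self, Finsupp.single_apply, if_neg (by simp), zero_add] at h6
        rw [← h6]
        rfl
    have hrange : ∀ T : Submodule K (Fin (2 + k) → K), (∀ i, N (b i) ∈ T) → LinearMap.range N ≤ T := by
      intro T hT
      rw [LinearMap.range_eq_map, ← b.span_eq, Submodule.map_span_le]
      rintro _ ⟨i, rfl⟩
      exact hT i
    rcases hC with h5 | ⟨h6, h7, v, h8⟩
    · have h9 := finrank_span_finset_le_card (R := K)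
        ({b (Sum.inl 0), b (Sum.inl 1), N (b (Sum.inl 0)), N (b (Sum.inl 1))} : Finset (Fin (2 + k) → K))
      rw [Set.finrank] at h9
      have h10 := h9.trans Finset.card_le_four
      have hm : ∀ i : Fin 2, b (Sum.inl i) ∈ span K ((({b (Sum.inl 0), b (Sum.inl 1), N (b (Sum.inl 0)),
          N (b (Sum.inl 1))} : Finset (Fin (2 + k) → K)) : Set (Fin (2 + k) → K))) := by
        intro i
        apply subset_span
        fin_cases i <;> simp
      have hm' : ∀ i : Fin 2, N (b (Sum.inl i)) ∈ span K ((({b (Sum.inl 0), b (Sum.inl 1), N (b (Sum.inl 0)),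
          N (b (Sum.inl 1))} : Finset (Fin (2 + k) → K)) : Set (Fin (2 + k) → K))) := by
        intro i
        apply subset_span
        fin_cases i <;> simp
      have h11 := Submodule.finrank_mono (hrange _ fun i => by
        rcases i with i | j
        · exact hm' i
        · rw [hst]
          exact sum_mem fun i _ => smul_mem _ _ (add_mem (hm i) (hm' i)))
      omega
    · apply h8
      refine hrange (span K {w₁, w₂}) (fun i => ?_) ⟨v, rfl⟩
      have h12 : ∀ i : Fin 2, N (b (Sum.inl i)) = 0 := by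
        intro i
        fin_cases i
        · change N (b (Sum.inl 0)) = 0
          rw [hb1', h6]
        · change N (b (Sum.inl 1)) = 0
          rw [hb2', h7]
      have h13 : ∀ i : Fin 2, b (Sum.inl i) ∈ span K {w₁, w₂} := by
        intro i
        apply subset_span
        fin_cases i
        · change b (Sum.inl 0) ∈ _
          rw [hb1']; simp
        · change b (Sum.inl 1) ∈ _
          rw [hb2']; simp
      rcases i with i | j
      · rw [h12]; exact zero_mem _
      · rw [hst]
        refine sum_mem fun i _ => smul_mem _ _ ?_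
        rw [h12, add_zero]
        exact h13 i

end Mat

end Cfsg.Agent.H493.TW
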